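import Mathlib
import Cfsg.Agent.H685.R4.Stein
import Cfsg.Agent.H685.R4.Base
import Cfsg.Agent.H612.BNAut
import Cfsg.Agent.H687.BNGeo
import Cfsg.Agent.Tits.Chart

/-!
# Almost simple groups with a split (B,N)-pair on the socle (helper685, S4554)

`N` a normal subgroup of `G` with a split (B,N)-pair of type `M`; `stb K` is the normaliser in `G` of the subgroup `K`
of `N`.

* `exists_mul_B` : `G = N · stb B`;
* `fW_w0` : the automorphisms of `W` induced by `stb B` fix `w₀`;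
* `index_stb` : `|G : stb P_J| = |N : P_J|` if `P_J` is invariant under `stb B`;
* `dc_inv` : double cosets of `stb P_J` closed under inversion;
* `not_dvd_relIndex` : the subdegree of `w₀` is a power of the characteristic.
-/

set_option autoImplicit false
set_option linter.unusedSectionVars false

namespace Cfsg.Agent.H685.R4

open Cfsg Cfsg.Agent.LieExceptional.BNPairCore Cfsg.Agent.Tits.Core Cfsg.Agent.Tits.OfBN
open Cfsg.Agent.H612.BNCosets Cfsg.Agent.FixBN

universe u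

section Stb

variable {G : Type u} [Group G] {N : Subgroup G} [N.Normal]

/-- conjugation by an element of `G` as an automorphism of `N` -/
def cn (x : G) : N ≃* N := (MulAut.conjNormal x : MulAut N)

theorem cn_coe (x : G) (n : N) : ((cn x n : N) : G) = x * n * x⁻¹ := MulAut.conjNormal_apply x n

theorem cn_mul (x y : G) (n : N) : cn (x * y) n = cn x (cn y n) := by
  apply Subtype.ext
  rw [cn_coe, cn_coe, cn_coe]
  group

theorem cn_one (n : N) : cn (1 : G) n = n := by
  apply Subtype.ext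
  rw [cn_coe]
  simp

theorem cn_of (m n : N) : cn (m : G) n = m * n * m⁻¹ := by
  apply Subtype.ext
  rw [cn_coe]
  rfl

/-- the normaliser in `G` of a subgroup of `N` -/
def stb (K : Subgroup N) : Subgroup G where
  carrier := {x | ∀ n : N, cn x n ∈ K ↔ n ∈ K}
  one_mem' n := by rw [cn_one]
  mul_mem' {x y} hx hy n := by rw [cn_mul, hx, hy]
  inv_mem' {x} hx n := by
    have h1 := hx (cn x⁻¹ n)
    rw [← cn_mul, mul_inv_cancel, cn_one] at h1
    exact h1.symm

theorem mem_stb {K : Subgroup N} {x : G} : x ∈ stb K ↔ ∀ n : N, cn x n ∈ K ↔ n ∈ K := Iff.rfl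

theorem coe_mem_stb {K : Subgroup N} {m : N} : (m : G) ∈ stb K ↔ m ∈ Subgroup.normalizer (K : Set N) := by
  rw [Subgroup.mem_normalizer_iff, mem_stb]
  constructor
  · intro h n
    rw [← cn_of, h]
  · intro h n
    rw [cn_of]
    exact (h n).symm

end Stb

section BN

variable {G : Type u} [Group G] [Finite G] {N : Subgroup G} [N.Normal]
  (P : Cfsg.BNPair N) {I : Type*} {M : CoxeterMatrix I} (e : I ≃ P.S)

theorem coe_mem_stb_PJ {J : Set I} {m : N} : (m : G) ∈ stb (PJ P e J) ↔ m ∈ PJ P e J := by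
  rw [coe_mem_stb]
  have h1 : Subgroup.normalizer ((PJ P e J : Subgroup N) : Set N) = PJ P e J :=
    Cfsg.Agent.S0312.result P (gens_subset P e J)
  rw [h1]

variable {P} {p : ℕ} {U : Subgroup N}

/-- **`G = N · stb B`.** -/
theorem exists_mul_B [Fact p.Prime] (hs : Split P p U) (x : G) : ∃ m : N, (m : G)⁻¹ * x ∈ stb P.B := by
  obtain ⟨g, hg⟩ := TwOfBN.exists_conj hs (cn x)
  refine ⟨g, fun n => ?_⟩
  rw [cn_mul]
  have h1 : cn ((g : G)⁻¹) (cn x n) = g⁻¹ * cn x n * g := by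
    rw [← Subgroup.coe_inv, cn_of, inv_inv]
  rw [h1]
  exact hg n

variable [hN : ((P.B ⊓ P.N).subgroupOf P.N).Normal] (cs : CoxeterSystem M (WP P))
  (hcs : ∀ i, cs.simple i = QuotientGroup.mk (⟨(e i : N), P.subset (e i).2⟩ : P.N))

include hcs

/-- the permutation of the nodes induced by an element of `stb B` -/
noncomputable def sig {x : G} (hx : x ∈ stb P.B) (i : I) : I := TwOfBN.sigma (cn x) hx e cs hcs i

theorem fW_simple {x : G} (hx : x ∈ stb P.B) (i : I) :
    TwOfBN.fW P (cn x) (cs.simple i) = cs.simple (sig e cs hcs hx i) := TwOfBN.fW_simple (cn x) hx e cs hcs i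

theorem fW_mul {x : G} (hx : x ∈ stb P.B) (v w : WP P) :
    TwOfBN.fW P (cn x) (v * w) = TwOfBN.fW P (cn x) v * TwOfBN.fW P (cn x) w := TwOfBN.fW_mul (cn x) hx e cs hcs v w

omit hcs hN in
theorem fW_inj {x : G} (hx : x ∈ stb P.B) : Function.Injective (TwOfBN.fW P (cn x)) := TwOfBN.fW_injective (cn x) hx

theorem fW_wordProd {x : G} (hx : x ∈ stb P.B) (ω : List I) :
    TwOfBN.fW P (cn x) (cs.wordProd ω) = cs.wordProd (ω.map (sig e cs hcs hx)) := by
  induction ω with
  | nil =>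
    rw [cs.wordProd_nil, List.map_nil, cs.wordProd_nil]
    exact TwOfBN.fW_one (cn x) hx
  | cons i ω ih =>
    rw [cs.wordProd_cons, List.map_cons, cs.wordProd_cons, fW_mul e cs hcs hx, ih, fW_simple e cs hcs hx]

theorem length_fW_le {x : G} (hx : x ∈ stb P.B) (w : WP P) :
    cs.length (TwOfBN.fW P (cn x) w) ≤ cs.length w := by
  obtain ⟨ω, hω, rfl⟩ := cs.exists_isReduced w
  rw [fW_wordProd e cs hcs hx, hω.eq]
  refine (cs.length_wordProd_le _).trans ?_
  rw [List.length_map]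

/-- **`w₀` is fixed.** -/
theorem fW_w0 {x : G} (hx : x ∈ stb P.B) : TwOfBN.fW P (cn x) (w0 cs) = w0 cs := by
  have : Finite (WP P) := inferInstance
  obtain ⟨v, hv⟩ := (Finite.injective_iff_surjective.1 (fW_inj (P := P) hx)) (w0 cs)
  have h1 := length_fW_le e cs hcs hx v
  rw [hv] at h1
  have h2 := Tits.Exchange.eq_w0_of_length cs h1
  rw [h2] at hv
  exact hv

theorem simple_inj : Function.Injective cs.simple := by
  intro i j hij
  by_contra hne
  have h1 : cs.simple i ∈ WJ cs {j} := by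
    rw [hij]
    exact Subgroup.subset_closure ⟨j, rfl, rfl⟩
  have h2 : ((e i : P.S) : N) ∈ PJ P e {j} := by
    rw [mem_PJ P e cs hcs, TwOfBN.wt_e e cs hcs]
    exact h1
  have h3 : PJ P e {i} ≤ PJ P e {j} := by
    unfold PJ
    rw [H612.BNAut.gens_singleton]
    refine sup_le (B_le_PJ P e {j}) ?_
    rw [Subgroup.closure_le, Set.singleton_subset_iff]
    exact h2
  rw [H612.BNAut.PJ_le_iff, Set.singleton_subset_iff, Set.mem_singleton_iff] at h3
  exact hne h3

theorem mem_of_simple_mem {J : Set I} {i : I} (h : cs.simple i ∈ WJ cs J) : i ∈ J := by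
  have h2 : ((e i : P.S) : N) ∈ PJ P e J := by
    rw [mem_PJ P e cs hcs, TwOfBN.wt_e e cs hcs]
    exact h
  have h3 : PJ P e {i} ≤ PJ P e J := by
    unfold PJ
    rw [H612.BNAut.gens_singleton]
    refine sup_le (B_le_PJ P e J) ?_
    rw [Subgroup.closure_le, Set.singleton_subset_iff]
    exact h2
  rwa [H612.BNAut.PJ_le_iff, Set.singleton_subset_iff] at h3

theorem sig_inj {x : G} (hx : x ∈ stb P.B) : Function.Injective (sig e cs hcs hx) := by
  intro i j hij
  have h1 : TwOfBN.fW P (cn x) (cs.simple i) = TwOfBN.fW P (cn x) (cs.simple j) := by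
    rw [fW_simple e cs hcs hx, fW_simple e cs hcs hx, hij]
  exact simple_inj e cs hcs (fW_inj (P := P) hx h1)

/-- the induced permutation of the nodes is a symmetry of the Coxeter matrix -/
theorem label_sig {x : G} (hx : x ∈ stb P.B) (i j : I) : M (sig e cs hcs hx i) (sig e cs hcs hx j) = M i j := by
  classical
  have hfin : Finite I := OfBN.finite_I e
  have := Fintype.ofFinite I
  let f : WP P →* WP P := ⟨⟨TwOfBN.fW P (cn x), TwOfBN.fW_one (cn x) hx⟩, fW_mul e cs hcs hx⟩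
  have h1 : orderOf (f (cs.simple i * cs.simple j)) = orderOf (cs.simple i * cs.simple j) :=
    orderOf_injective f (fW_inj (P := P) hx) _
  have h2 : f (cs.simple i * cs.simple j) = cs.simple (sig e cs hcs hx i) * cs.simple (sig e cs hcs hx j) := by
    rw [map_mul]
    show TwOfBN.fW P (cn x) _ * TwOfBN.fW P (cn x) _ = _
    rw [fW_simple e cs hcs hx, fW_simple e cs hcs hx]
  rw [h2, Cfsg.Agent.LieRecognition.CoxForm.orderOf_eq, Cfsg.Agent.LieRecognition.CoxForm.orderOf_eq] at h1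
  exact h1

theorem fW_mem_WJ {x : G} (hx : x ∈ stb P.B) {J : Set I} (hJ : ∀ j ∈ J, sig e cs hcs hx j ∈ J) {w : WP P}
    (hw : w ∈ WJ cs J) : TwOfBN.fW P (cn x) w ∈ WJ cs J := by
  obtain ⟨ω, hω, rfl⟩ := Tits.Exchange.exists_word_of_mem_WJ cs hw
  rw [fW_wordProd e cs hcs hx]
  refine Tits.Exchange.wordProd_mem_WJ cs fun i hi => ?_
  obtain ⟨j, hj, rfl⟩ := List.mem_map.1 hi
  exact hJ j (hω j hj)

theorem fW_mem_WJ_iff {x : G} (hx : x ∈ stb P.B) {J : Set I} (hJ : ∀ j ∈ J, sig e cs hcs hx j ∈ J) {w : WP P} :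
    TwOfBN.fW P (cn x) w ∈ WJ cs J ↔ w ∈ WJ cs J := by
  refine ⟨fun h => ?_, fW_mem_WJ e cs hcs hx hJ⟩
  have : Finite (WP P) := inferInstance
  have h1 : Function.Injective (fun v : WJ cs J => (⟨TwOfBN.fW P (cn x) v, fW_mem_WJ e cs hcs hx hJ v.2⟩ : WJ cs J)) := by
    intro v v' h
    exact Subtype.ext (fW_inj (P := P) hx (congrArg Subtype.val h))
  obtain ⟨v, hv⟩ := (Finite.injective_iff_surjective.1 h1) ⟨_, h⟩
  have h2 : w = v := (fW_inj (P := P) hx (congrArg Subtype.val hv)).symm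
  rw [h2]
  exact v.2

/-- an element of `stb B` whose permutation preserves `J` normalises `P_J` -/
theorem mem_stb_PJ {x : G} (hx : x ∈ stb P.B) {J : Set I} (hJ : ∀ j ∈ J, sig e cs hcs hx j ∈ J) :
    x ∈ stb (PJ P e J) := by
  intro n
  rw [mem_PJ P e cs hcs, mem_PJ P e cs hcs, ← TwOfBN.fW_wt (cn x) hx, fW_mem_WJ_iff e cs hcs hx hJ]

/-- `J` is invariant if it is invariant under the symmetries of the Coxeter matrix -/
theorem stable_of_symm {J : Set I} (hJ : ∀ σ : Equiv.Perm I, (∀ i j, M (σ i) (σ j) = M i j) → σ '' J = J)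
    {x : G} (hx : x ∈ stb P.B) (j : I) (hj : j ∈ J) : sig e cs hcs hx j ∈ J := by
  have hfin : Finite I := OfBN.finite_I e
  let σ : Equiv.Perm I := Equiv.ofBijective _ (Finite.injective_iff_bijective.1 (sig_inj e cs hcs hx))
  have h1 := hJ σ (fun i j => label_sig e cs hcs hx i j)
  rw [← h1]
  exact ⟨j, hj, rfl⟩

/-- `J` is invariant under the opposition involution if it is invariant under the symmetries -/
theorem op_of_symm {J : Set I} (hJ : ∀ σ : Equiv.Perm I, (∀ i j, M (σ i) (σ j) = M i j) → σ '' J = J) :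
    op cs '' J = J := by
  classical
  have hfin : Finite I := OfBN.finite_I e
  have := Fintype.ofFinite I
  have hinj := simple_inj e cs hcs
  have h0 : Function.Injective (op cs) := by
    intro i j hij
    rw [← Tits.Exchange.op_op cs hinj i, ← Tits.Exchange.op_op cs hinj j, hij]
  refine hJ (Equiv.ofBijective _ (Finite.injective_iff_bijective.1 h0)) (fun i j => ?_)
  show M (op cs i) (op cs j) = M i j
  rw [← Cfsg.Agent.LieRecognition.CoxForm.orderOf_eq cs, ← Cfsg.Agent.LieRecognition.CoxForm.orderOf_eq cs]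
  have h1 : cs.simple (op cs i) * cs.simple (op cs j) = w0 cs * (cs.simple i * cs.simple j) * (w0 cs)⁻¹ := by
    rw [Tits.Exchange.simple_op, Tits.Exchange.simple_op, Tits.Exchange.w0_inv]
    have h2 := Tits.Exchange.w0_mul_self cs
    calc w0 cs * cs.simple i * w0 cs * (w0 cs * cs.simple j * w0 cs)
        = w0 cs * cs.simple i * (w0 cs * w0 cs) * cs.simple j * w0 cs := by group
      _ = w0 cs * (cs.simple i * cs.simple j) * w0 cs := by rw [h2]; group
  rw [h1]
  have h3 := orderOf_injective (MulAut.conj (w0 cs)).toMonoidHom (MulAut.conj (w0 cs)).injective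
    (cs.simple i * cs.simple j)
  exact h3

variable {J : Set I} (hJ : ∀ x (hx : x ∈ stb P.B), ∀ j ∈ J, sig e cs hcs (x := x) hx j ∈ J)

include hJ in
/-- **`G = N · stb P_J`.** -/
theorem exists_mul_J [Fact p.Prime] (hs : Split P p U) (x : G) :
    ∃ m : N, ∃ h ∈ stb (PJ P e J), h ∈ stb P.B ∧ x = m * h := by
  obtain ⟨m, hm⟩ := exists_mul_B hs x
  exact ⟨m, _, mem_stb_PJ e cs hcs hm (hJ _ hm), hm, by group⟩

include hJ in
/-- elements of `stb P_J` -/
theorem exists_mul_stb [Fact p.Prime] (hs : Split P p U) {x : G} (hx : x ∈ stb (PJ P e J)) :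
    ∃ m ∈ PJ P e J, ∃ h ∈ stb P.B, x = (m : N) * h := by
  obtain ⟨m, h, h1, h2, rfl⟩ := exists_mul_J e cs hcs hJ hs x
  refine ⟨m, ?_, h, h2, rfl⟩
  have h3 := mul_mem hx (inv_mem h1)
  rw [mul_inv_cancel_right, coe_mem_stb_PJ] at h3
  exact h3

include hJ in
/-- **The index of `stb P_J`.** -/
theorem index_stb [Fact p.Prime] (hs : Split P p U) : (stb (PJ P e J) : Subgroup G).index = (PJ P e J).index := by
  have h1 := H687.relIndex_of_mul (A := (⊤ : Subgroup G)) (B := N) (C := stb (PJ P e J)) le_top (fun a _ => by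
    obtain ⟨m, h, h1, -, h2⟩ := exists_mul_J e cs hcs hJ hs a⁻¹
    refine ⟨h⁻¹, inv_mem h1, (m : G)⁻¹, inv_mem m.2, ?_⟩
    rw [← mul_inv_rev, ← h2, inv_inv])
  rw [Subgroup.relIndex_top_right] at h1
  rw [h1, Subgroup.relIndex]
  congr 1
  ext m
  rw [Subgroup.mem_subgroupOf, coe_mem_stb_PJ]

include hJ in
/-- **Double cosets of `stb P_J` closed under inversion.** -/
theorem dc_inv [Fact p.Prime] (hs : Split P p U)
    (hW : ∀ w : WP P, ∃ x : G, x ∈ stb P.B ∧ ∃ a ∈ WJ cs J, ∃ b ∈ WJ cs J, w⁻¹ = a * TwOfBN.fW P (cn x) w * b)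
    (g : G) : ∃ a ∈ stb (PJ P e J), ∃ b ∈ stb (PJ P e J), g⁻¹ = a * g * b := by
  obtain ⟨n, h, hh, -, rfl⟩ := exists_mul_J e cs hcs hJ hs g
  obtain ⟨x, hx, a, ha, b, hb, hab⟩ := hW (wt P n)
  have hxJ := mem_stb_PJ e cs hcs hx (hJ x hx)
  rw [TwOfBN.fW_wt (cn x) hx] at hab
  have h1 : wt P n⁻¹ = (wt P n)⁻¹ := by
    obtain ⟨k, hk⟩ := exists_mem_C P n
    rw [wt_of_mem P hk, ← QuotientGroup.mk_inv]
    exact wt_of_mem P (inv_mem_C hk)
  rw [← h1] at hab
  have h2 : DoubleCoset.setoid (PJ P e J : Set N) (PJ P e J : Set N) (cn x n) n⁻¹ := by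
    rw [setoid_iff P e cs hcs, DoubleCoset.rel_iff]
    exact ⟨a, ha, b, hb, hab⟩
  obtain ⟨c, hc, d, hd, hcd⟩ := DoubleCoset.rel_iff.1 h2
  have hc' : (c : G) ∈ stb (PJ P e J) := (coe_mem_stb_PJ P e).2 hc
  have hd' : (d : G) ∈ stb (PJ P e J) := (coe_mem_stb_PJ P e).2 hd
  have h3 : (n : G)⁻¹ = c * (x * n * x⁻¹) * d := by
    have h4 := congrArg (fun z : N => (z : G)) hcd
    simpa [cn_coe] using h4
  refine ⟨h⁻¹ * c * x, mul_mem (mul_mem (inv_mem hh) hc') hxJ, h⁻¹ * x⁻¹ * d,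
    mul_mem (mul_mem (inv_mem hh) (inv_mem hxJ)) hd', ?_⟩
  rw [mul_inv_rev, h3]
  group

/-- `w₀` is in no proper parabolic subgroup -/
theorem w0_notMem (hne : J ≠ Set.univ) : w0 cs ∉ WJ cs J := by
  intro h
  apply hne
  have : Finite (WP P) := inferInstance
  ext i
  refine ⟨fun _ => trivial, fun _ => ?_⟩
  exact mem_of_simple_mem e cs hcs (Tits.Exchange.mem_WJ_of_nn cs h
    (Tits.Chart.nn_w0 cs (cs.isReflection_simple i)))

include hJ in
/-- **The subdegree of `w₀`.** -/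
theorem exists_subdeg [Fact p.Prime] (hs : Split P p U) (hne : J ≠ Set.univ)
    (hop : ∀ a ∈ WJ cs J, w0 cs * a * w0 cs ∈ WJ cs J) :
    ∃ g : G, g ∉ stb (PJ P e J) ∧ ∀ q : ℕ, q.Prime → q ≠ p →
      ¬ q ∣ ((stb (PJ P e J) : Subgroup G).map (MulAut.conj g).toMonoidHom).relIndex (stb (PJ P e J)) := by
  classical
  have hfin : Finite (WP P) := inferInstance
  have hw2 := Tits.Exchange.w0_mul_self cs
  obtain ⟨n, hn⟩ := QuotientGroup.mk_surjective (w0 cs)
  have hwn : wt P ((n : P.N) : N) = w0 cs := by rw [wt_of_mem P (self_mem_C _), hn]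
  refine ⟨(((n : P.N) : N) : G), ?_, ?_⟩
  · rw [coe_mem_stb_PJ, mem_PJ P e cs hcs, hwn]
    exact w0_notMem e cs hcs hne
  · intro q hq hqp hdvd
    set C : Subgroup G := (stb (PJ P e J) : Subgroup G).map (MulAut.conj (((n : P.N) : N) : G)).toMonoidHom with hC
    have hUle : U.map N.subtype ≤ (stb (PJ P e J) : Subgroup G) := by
      rintro _ ⟨u, hu, rfl⟩
      exact (coe_mem_stb_PJ P e).2 (B_le_PJ P e J (hs.le hu))
    have key : ∀ h ∈ (stb (PJ P e J) : Subgroup G), ∃ u ∈ U, ∃ k ∈ (stb (PJ P e J) : Subgroup G),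
        h * (((n : P.N) : N) : G) = (u : N) * (((n : P.N) : N) : G) * k := by
      intro h hh
      obtain ⟨m, hm, x, hx, rfl⟩ := exists_mul_stb e cs hcs hJ hs hh
      -- the weight of the conjugate
      have h1 : wt P (cn x (n : P.N)) = w0 cs := by
        rw [← TwOfBN.fW_wt (cn x) hx, hwn, fW_w0 e cs hcs hx]
      obtain ⟨a, ha, h2⟩ := wt_mul_PJ_left P e cs hcs hm (cn x (n : P.N))
      have h3 : m * cn x (n : P.N) * m⁻¹ = (m * cn x (n : P.N)) * m⁻¹ := rfl
      obtain ⟨b, hb, h4⟩ := wt_mul_PJ_right P e cs hcs (inv_mem hm) (m * cn x (n : P.N))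
      rw [h2, h1] at h4
      have h5 : a * w0 cs * b = w0 cs * ((w0 cs * a * w0 cs) * b) := by
        calc a * w0 cs * b = (w0 cs * w0 cs) * a * w0 cs * b := by rw [hw2, one_mul]
          _ = w0 cs * ((w0 cs * a * w0 cs) * b) := by group
      rw [h5] at h4
      obtain ⟨y, hyN, hy, hyb⟩ := (mem_WJ_iff P e cs hcs).1 (mul_mem (hop a ha) hb)
      have h6 : wt P (((n : P.N) : N) * y) = w0 cs * (w0 cs * a * w0 cs * b) := by
        rw [hyb, ← hn, ← QuotientGroup.mk_mul]
        exact wt_of_mem P (n := n * ⟨y, hyN⟩) (self_mem_C _)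
      obtain ⟨u, hu, c, hc, h7⟩ := exists_mul hs (h6.trans h4.symm)
      have hyJ : y ∈ PJ P e J := (le_sup_right : Subgroup.closure _ ≤ PJ P e J) hy
      refine ⟨u, hu, (y * c : N) * (m * x), ?_, ?_⟩
      · exact mul_mem ((coe_mem_stb_PJ P e).2 (mul_mem hyJ (B_le_PJ P e J hc))) hh
      · have h8 := congrArg (fun z : N => (z : G)) h7
        have h9 : (m : G) * (x * n * x⁻¹) * (m : G)⁻¹ = (u : G) * (n * y) * c := by
          simpa [cn_coe, mul_assoc] using h8
        calc (m : G) * x * n = ((m : G) * (x * n * x⁻¹) * (m : G)⁻¹) * (m * x) := by group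
          _ = (u : G) * (n * y) * c * (m * x) := by rw [h9]
          _ = u * n * ((y * c : N) * (m * x)) := by
            rw [Subgroup.coe_mul]
            group
    have h1 := H687.relIndex_of_mul (A := (stb (PJ P e J) : Subgroup G)) (B := U.map N.subtype) (C := C) hUle
      (fun h hh => by
        obtain ⟨u, hu, k, hk, h1⟩ := key h⁻¹ (inv_mem hh)
        refine ⟨(((n : P.N) : N) : G) * k⁻¹ * (((n : P.N) : N) : G)⁻¹, ⟨k⁻¹, inv_mem hk, rfl⟩, ((u⁻¹ : N) : G),
          ⟨u⁻¹, inv_mem hu, rfl⟩, ?_⟩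
        have h2 : h⁻¹ = u * n * k * (((n : P.N) : N) : G)⁻¹ := by rw [← h1]; group
        rw [← inv_inv h, h2, Subgroup.coe_inv]
        group)
    rw [h1] at hdvd
    have hUp : IsPGroup p (U.map N.subtype) := hs.isP.map _
    obtain ⟨k, hk⟩ := hUp.index (C.subgroupOf (U.map N.subtype))
    rw [Subgroup.relIndex, hk] at hdvd
    exact hqp ((Nat.prime_dvd_prime_iff_eq hq Fact.out).1 (hq.dvd_of_dvd_pow hdvd))

end BN

end Cfsg.Agent.H685.R4
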