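import Cfsg.Agent.H685.R4.WExc
import Cfsg.Agent.H612.ModA
import Cfsg.Agent.LieRecognition.CoxForm

/-!
# Self-paired double cosets: type `A_n` and rank two; the opposition involution (helper685, S4554)
-/

set_option autoImplicit false
set_option linter.style.longLine false
set_option linter.unusedSectionVars false

namespace Cfsg.Agent.H685.R4.WA

open Cfsg.Agent.H905.DC Cfsg.Agent.H612.WModel Cfsg.Agent.H612
open Cfsg.Agent.ChevalleyStructure.CoxeterGeom Cfsg.Agent.Tits.Roots Cfsg.Agent.Tits.Core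
open Cfsg.Agent.H685.R4.WInv
open Cfsg.Agent.Nodes.RootsA
open Cfsg.Agent.LieRecognition.BNCox (cA cA_apply)

/-! ### type `A` -/

variable {n : ℕ}

theorem E_injective : Function.Injective (ModA.E (n := n)) := by
  intro a b hab
  rcases Nat.eq_zero_or_pos n with h0 | hpos
  · apply Fin.ext
    omega
  · have ha := a.2
    have hb := b.2
    by_cases h : (a : ℕ) < n
    · have h1 := congrFun hab ⟨a, h⟩
      unfold ModA.E at h1
      simp only [if_true] at h1
      apply Fin.ext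
      split_ifs at h1 <;> omega
    · have h1 := congrFun hab ⟨n - 1, by omega⟩
      unfold ModA.E at h1
      simp only at h1
      apply Fin.ext
      split_ifs at h1 <;> omega

/-- moves with index in `[c, d)` -/
def Mv (c d : ℕ) (x y : Fin (n + 1)) : Prop := ∃ j : Fin n, c ≤ j ∧ (j : ℕ) < d ∧ y = ModA.tr j x

theorem reach {c d : ℕ} (hc : c < n + 1) : ∀ k, ∀ h : c + k < n + 1, c + k ≤ d →
    Relation.ReflTransGen (Mv (n := n) c d) ⟨c, hc⟩ ⟨c + k, h⟩
  | 0, h, _ => Relation.ReflTransGen.refl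
  | k + 1, h, hd => by
    refine (reach hc k (by omega) (by omega)).tail ⟨⟨c + k, by omega⟩, by simp, by simp; omega, ?_⟩
    apply Fin.ext
    rw [ModA.tr_val]
    simp
    omega

theorem reach' {c d : ℕ} (hc : c < n + 1) (x : Fin (n + 1)) (h1 : c ≤ x) (h2 : (x : ℕ) ≤ d) :
    Relation.ReflTransGen (Mv (n := n) c d) ⟨c, hc⟩ x := by
  obtain ⟨k, hk⟩ := Nat.exists_eq_add_of_le h1
  have h3 : x = ⟨c + k, by omega⟩ := Fin.ext hk
  rw [h3]
  exact reach hc k _ (by omega)

/-- the functional of the first index -/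
def l (n : ℕ) : Fin n → ℤ := ModA.E 0

theorem l_apply (m : Fin n) : l n m = if (m : ℕ) = 0 then 1 else 0 := by
  show ((if (0 : ℕ) = (m : ℕ) then 1 else 0) - (if (0 : ℕ) = (m : ℕ) + 1 then 1 else 0) : ℤ) = _
  rw [if_neg (by omega : ¬ (0 : ℕ) = (m : ℕ) + 1), sub_zero]
  by_cases h : (m : ℕ) = 0
  · rw [if_pos h, if_pos h.symm]
  · rw [if_neg h, if_neg (fun h' => h h'.symm)]

/-- the model -/
def model (n : ℕ) : Model (AA n) (l n) (Fin (n + 1)) where
  a := fun j x => ModA.tr j x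
  f := ModA.E
  inj := E_injective
  step j x := funext fun m => ModA.E_step j m x
  o := 0
  base := rfl
  conn x := by
    refine Relation.ReflTransGen.mono ?_ _ _ (reach' (c := 0) (d := n) (by omega) x (Nat.zero_le _) (by omega))
    rintro a b ⟨j, _, _, hj⟩
    exact ⟨j, hj⟩

/-- the two components -/
def col (hn : 1 ≤ n) : ColK (model n) {i | l n i = 0} (Fin 2) where
  c x := if (x : ℕ) = 0 then 0 else 1
  inv j hj x := by
    replace hj : l n j = 0 := hj
    rw [l_apply] at hj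
    have hj0 : (j : ℕ) ≠ 0 := by
      intro h0
      rw [if_pos h0] at hj
      exact absurd hj (by norm_num)
    show (if (ModA.tr j x : ℕ) = 0 then (0 : Fin 2) else 1) = if (x : ℕ) = 0 then 0 else 1
    have hiff : (ModA.tr j x : ℕ) = 0 ↔ (x : ℕ) = 0 := by
      rw [ModA.tr_val]
      split_ifs <;> refine ⟨fun h => ?_, fun h => ?_⟩ <;> first | omega | exact h.elim
    simp only [hiff]
  b k := if k = 0 then 0 else ⟨1, by omega⟩
  conn x := by
    have hx := x.2
    by_cases h0 : (x : ℕ) = 0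
    · have h1 : x = 0 := Fin.ext h0
      subst h1
      simp only [Fin.val_zero, if_true]
      exact Relation.ReflTransGen.refl
    · simp only [h0, if_false, one_ne_zero]
      refine Relation.ReflTransGen.mono ?_ _ _ (reach' (c := 1) (d := n) (by omega) x (by omega) (by omega))
      rintro a b ⟨j, hj, _, hab⟩
      refine ⟨j, ?_, hab⟩
      show l n j = 0
      rw [l_apply, if_neg (by omega)]

/-- the two components for the other parabolic subgroup -/
def colK (hn : 1 ≤ n) : ColK (model n) {i : Fin n | (i : ℕ) ≠ n - 1} (Fin 2) where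
  c x := if (x : ℕ) = n then 1 else 0
  inv j hj x := by
    replace hj : (j : ℕ) ≠ n - 1 := hj
    have hjn := j.2
    show (if (ModA.tr j x : ℕ) = n then (1 : Fin 2) else 0) = if (x : ℕ) = n then 1 else 0
    have hiff : (ModA.tr j x : ℕ) = n ↔ (x : ℕ) = n := by
      rw [ModA.tr_val]
      split_ifs <;> refine ⟨fun h => ?_, fun h => ?_⟩ <;> first | omega | exact h.elim
    simp only [hiff]
  b k := if k = 0 then 0 else ⟨n, by omega⟩
  conn x := by
    have hx := x.2
    by_cases h0 : (x : ℕ) = n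
    · have h1 : x = ⟨n, by omega⟩ := Fin.ext h0
      rw [h1]
      simp only [if_true, one_ne_zero, if_false]
      exact Relation.ReflTransGen.refl
    · simp only [h0, if_false, if_true]
      refine Relation.ReflTransGen.mono ?_ _ _ (reach' (c := 0) (d := n - 1) (by omega) x (by omega) (by omega))
      rintro a b ⟨j, hj, hj', hab⟩
      exact ⟨j, show (j : ℕ) ≠ n - 1 by omega, hab⟩

theorem J_eq : {i : Fin n | (i : ℕ) ≠ 0} = {i | l n i = 0} := by
  ext i
  show (i : ℕ) ≠ 0 ↔ l n i = 0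
  rw [l_apply]
  split_ifs <;> simp_all

theorem l_nonneg (i : Fin n) : 0 ≤ l n i := by
  rw [l_apply]
  split_ifs <;> norm_num

theorem hR_A (hn : 1 ≤ n) {W : Type*} [Group W] (cs : CoxeterSystem (cA n) W) (w : W) :
    ∃ a ∈ WJ cs {i | (i : ℕ) ≠ 0}, ∃ b ∈ WJ cs {i | (i : ℕ) ≠ 0}, w⁻¹ = a * w * b := by
  rw [J_eq]
  refine ColK.hR1 cs (isCartan n) (C := col hn) l_nonneg (1 : Fin 2) (fun k hk => ⟨1, ?_, ?_⟩) w
  · have hk' : k = 0 := by
      revert k
      decide
    rw [Model.pos_one, hk']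
    rfl
  · have hk' : k = 0 := by
      revert k
      decide
    rw [inv_one, Model.pos_one, hk']
    rfl

theorem hR2_A (hn : 1 ≤ n) {W : Type*} [Group W] (cs : CoxeterSystem (cA n) W) (σ : Equiv.Perm (Fin n))
    (h1 : σ '' {i : Fin n | (i : ℕ) ≠ 0} = {i : Fin n | (i : ℕ) ≠ n - 1})
    (h2 : σ '' {i : Fin n | (i : ℕ) ≠ n - 1} = {i : Fin n | (i : ℕ) ≠ 0})
    (φ : W → W) (hφ : ∀ v w, φ (v * w) = φ v * φ w) (hφi : Function.Injective φ)
    (hφs : ∀ i, φ (cs.simple i) = cs.simple (σ i)) (w : W) :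
    ∃ a ∈ WJ cs {i : Fin n | (i : ℕ) ≠ 0}, ∃ b ∈ WJ cs {i : Fin n | (i : ℕ) ≠ n - 1}, φ w⁻¹ = a * w * b := by
  rw [J_eq] at h1 h2 ⊢
  refine ColK.hR2 cs (isCartan n) (colK hn) l_nonneg h1 h2 hφ hφi hφs 1 (fun k hk => ?_) w
  have h3 : φ 1 = 1 := by
    have := hφ 1 1
    rw [mul_one] at this
    exact mul_eq_left.1 this.symm
  have hk' : k = 0 := by
    revert k
    decide
  have h4 : (colK hn).c (model n).o = 0 := by
    show (if ((0 : Fin (n + 1)) : ℕ) = n then (1 : Fin 2) else 0) = 0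
    rw [Fin.val_zero, if_neg (by omega)]
  rw [hk']
  refine ⟨1, ?_, ?_⟩
  · rw [Model.pos_one, h4]
  · rw [inv_one, h3, Model.pos_one, h4]

theorem two_A (hn : 1 ≤ n) {W : Type*} [Group W] (cs : CoxeterSystem (cA n) W) :
    ∃ v : W, ∀ w : W, w ∈ WJ cs {i : Fin n | (i : ℕ) ≠ 0} ∨
      ∃ a ∈ WJ cs {i : Fin n | (i : ℕ) ≠ 0}, ∃ b ∈ WJ cs {i : Fin n | (i : ℕ) ≠ 0}, w = a * v * b := by
  rw [J_eq]
  obtain ⟨v, hv⟩ := (model n).pos_surjective cs (isCartan n) ⟨1, by omega⟩
  have hv' : (col hn).c ((model n).pos cs (isCartan n) v) = 1 := by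
    rw [hv]
    rfl
  refine ⟨v, fun w => ?_⟩
  by_cases hw : (col hn).c ((model n).pos cs (isCartan n) w) = 0
  · left
    have h1 : (col hn).c ((model n).pos cs (isCartan n) (1 : W)) = (col hn).c ((model n).pos cs (isCartan n) w) := by
      rw [hw, Model.pos_one]
      rfl
    obtain ⟨a, ha, b, hb, h2⟩ := ((col hn).iff cs (isCartan n) l_nonneg).1 h1
    rw [h2, mul_one]
    exact mul_mem ha hb
  · right
    have hw' : (col hn).c ((model n).pos cs (isCartan n) w) = 1 := by
      generalize (col hn).c ((model n).pos cs (isCartan n) w) = x at hw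
      revert x
      decide
    exact ((col hn).iff cs (isCartan n) l_nonneg).1 (hv'.trans hw'.symm)

theorem sym_A' (hn : 2 ≤ n) (σ : Equiv.Perm (Fin n)) (hσ : ∀ i j, cA n (σ i) (σ j) = cA n i j) :
    σ '' {i : Fin n | (i : ℕ) ≠ 0} = {i : Fin n | (i : ℕ) ≠ 0} ∨
      σ '' {i : Fin n | (i : ℕ) ≠ 0} = {i : Fin n | (i : ℕ) ≠ n - 1} ∧
      σ '' {i : Fin n | (i : ℕ) ≠ n - 1} = {i : Fin n | (i : ℕ) ≠ 0} := by
  have h := Sym.sym_A σ hσ
  let a : Fin n := ⟨0, by omega⟩
  let b : Fin n := ⟨n - 1, by omega⟩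
  have ha : (a : ℕ) = 0 := rfl
  have hb : (b : ℕ) = n - 1 := rfl
  have key : ∀ x : Fin n, ((x : ℕ) = 0 ∨ (x : ℕ) = n - 1) → ((σ x : ℕ) = 0 ∨ (σ x : ℕ) = n - 1) := by
    intro x hx
    by_contra hcon
    have h1 : σ x ∈ {i : Fin n | ¬ ((i : ℕ) = 0 ∨ (i : ℕ) = n - 1)} := hcon
    rw [← h] at h1
    obtain ⟨y, hy, hyx⟩ := h1
    rw [σ.injective hyx] at hy
    exact hy hx
  have hab : (σ a : ℕ) ≠ σ b := by
    intro h1
    have h2 := σ.injective (Fin.ext h1)
    have h3 := congrArg Fin.val h2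
    omega
  have him : ∀ c d : Fin n, σ c = d → σ '' {i : Fin n | (i : ℕ) ≠ c} = {i : Fin n | (i : ℕ) ≠ d} := by
    intro c d hcd
    ext i
    constructor
    · rintro ⟨j, hj, rfl⟩ h1
      apply hj
      rw [σ.injective ((Fin.ext h1).trans hcd.symm)]
    · intro hi
      obtain ⟨j, rfl⟩ := σ.surjective i
      refine ⟨j, fun h1 => hi ?_, rfl⟩
      rw [Fin.ext h1, hcd]
  rcases key a (Or.inl rfl) with h1 | h1
  · exact Or.inl (him a a (Fin.ext (h1.trans ha.symm)))
  · right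
    refine ⟨him a b (Fin.ext (h1.trans hb.symm)), him b a (Fin.ext ?_)⟩
    rcases key b (Or.inr rfl) with h2 | h2
    · exact h2.trans ha.symm
    · exact absurd (h1.trans h2.symm) hab

/-! ### rank two -/

section Two

variable {M : CoxeterMatrix (Fin 2)} {W : Type*} [Group W] (cs : CoxeterSystem M W)

theorem form (w : W) : ∃ k : ℤ, w = (cs.simple 0 * cs.simple 1) ^ k ∨ w = (cs.simple 0 * cs.simple 1) ^ k * cs.simple 0 := by
  induction w using cs.simple_induction_right with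
  | one => exact ⟨0, Or.inl (zpow_zero _).symm⟩
  | mul_simple_right w i ih =>
    obtain ⟨k, rfl | rfl⟩ := ih
    · fin_cases i
      · exact ⟨k, Or.inr rfl⟩
      · refine ⟨k - 1, Or.inr ?_⟩
        rw [zpow_sub_one, mul_inv_rev, cs.inv_simple, cs.inv_simple]
        show _ * cs.simple 1 = _
        rw [mul_assoc, mul_assoc, cs.simple_mul_simple_self, mul_one]
    · fin_cases i
      · refine ⟨k, Or.inl ?_⟩
        show _ * cs.simple 0 = _
        rw [mul_assoc, cs.simple_mul_simple_self, mul_one]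
      · refine ⟨k + 1, Or.inl ?_⟩
        show _ * cs.simple 1 = _
        rw [zpow_add_one, mul_assoc]

theorem conj_zpow (k : ℤ) : cs.simple 0 * (cs.simple 0 * cs.simple 1) ^ k * cs.simple 0 =
    (cs.simple 0 * cs.simple 1) ^ (-k) := by
  have h1 : cs.simple 0 * (cs.simple 0 * cs.simple 1) * (cs.simple 0)⁻¹ = (cs.simple 0 * cs.simple 1)⁻¹ := by
    rw [mul_inv_rev, cs.inv_simple, cs.inv_simple, ← mul_assoc, cs.simple_mul_simple_self, one_mul]
  have h2 : cs.simple 0 * (cs.simple 0 * cs.simple 1) ^ k * (cs.simple 0)⁻¹ = (cs.simple 0 * cs.simple 1)⁻¹ ^ k := by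
    rw [← h1, _root_.conj_zpow]
  rwa [cs.inv_simple, inv_zpow'] at h2

theorem simple_mem {J : Set (Fin 2)} {j : Fin 2} (h : j ∈ J) : cs.simple j ∈ WJ cs J :=
  Subgroup.subset_closure ⟨j, h, rfl⟩

theorem hR_two (w : W) : ∃ a ∈ WJ cs {0}, ∃ b ∈ WJ cs {0}, w⁻¹ = a * w * b := by
  obtain ⟨k, rfl | rfl⟩ := form cs w
  · refine ⟨_, simple_mem cs rfl, _, simple_mem cs rfl, ?_⟩
    rw [conj_zpow, zpow_neg]
  · refine ⟨1, one_mem _, 1, one_mem _, ?_⟩
    rw [one_mul, mul_one, mul_inv_rev, cs.inv_simple, ← zpow_neg, ← conj_zpow cs k, ← mul_assoc, ← mul_assoc,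
      cs.simple_mul_simple_self, one_mul]

theorem hR2_two (σ : Equiv.Perm (Fin 2)) (h1 : σ '' {0} = {1}) (φ : W → W) (hφ : ∀ v w, φ (v * w) = φ v * φ w)
    (hφs : ∀ i, φ (cs.simple i) = cs.simple (σ i)) (w : W) :
    ∃ a ∈ WJ cs {0}, ∃ b ∈ WJ cs {1}, φ w⁻¹ = a * w * b := by
  have e0 : σ 0 = 1 := by
    rw [Set.image_singleton] at h1
    exact Set.singleton_injective h1
  have e1 : σ 1 = 0 := by
    have h2 : σ 1 ≠ 1 := fun h => absurd (σ.injective (h.trans e0.symm)) (by decide)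
    generalize σ 1 = x at h2
    revert x
    decide
  have h3 : φ (cs.simple 0) = cs.simple 1 := by rw [hφs, e0]
  have h4 : φ (cs.simple 1) = cs.simple 0 := by rw [hφs, e1]
  let f : W →* W := MonoidHom.mk' φ hφ
  have h5 : ∀ k : ℤ, φ ((cs.simple 0 * cs.simple 1) ^ k) = (cs.simple 0 * cs.simple 1) ^ (-k) := by
    intro k
    have h6 : f ((cs.simple 0 * cs.simple 1) ^ k) = (f (cs.simple 0 * cs.simple 1)) ^ k := map_zpow f _ k
    have h7 : f (cs.simple 0 * cs.simple 1) = (cs.simple 0 * cs.simple 1)⁻¹ := by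
      show φ _ = _
      rw [hφ, h3, h4, mul_inv_rev, cs.inv_simple, cs.inv_simple]
    rw [h7, inv_zpow'] at h6
    exact h6
  obtain ⟨k, rfl | rfl⟩ := form cs w
  · refine ⟨1, one_mem _, 1, one_mem _, ?_⟩
    rw [one_mul, mul_one, ← zpow_neg, h5, neg_neg]
  · refine ⟨_, simple_mem cs rfl, _, simple_mem cs rfl, ?_⟩
    have h8 : ((cs.simple 0 * cs.simple 1) ^ k * cs.simple 0)⁻¹ = (cs.simple 0 * cs.simple 1) ^ k * cs.simple 0 := by
      rw [mul_inv_rev, cs.inv_simple, ← zpow_neg, ← conj_zpow cs k, ← mul_assoc, ← mul_assoc,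
        cs.simple_mul_simple_self, one_mul]
    rw [h8, hφ, h5, h3, ← mul_assoc, conj_zpow]

end Two

theorem sym_two (σ : Equiv.Perm (Fin 2)) : σ '' {0} = {0} ∨ σ '' {0} = {1} ∧ σ '' {1} = {0} := by
  rw [Set.image_singleton, Set.image_singleton]
  have h : σ 0 ≠ σ 1 := σ.injective.ne (by decide)
  generalize σ 0 = x at h ⊢
  generalize σ 1 = y at h ⊢
  revert x y
  simp only [Set.singleton_eq_singleton_iff]
  decide

/-! ### the opposition involution -/

section Op

variable {I : Type*} {M : CoxeterMatrix I} {W : Type*} [Group W] [Finite W] (cs : CoxeterSystem M W)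

/-- the opposition involution preserves classes of reflections -/
theorem op_of_sign {f : I → ℤˣ} (hf : M.IsLiftable f) (i : I) : f (op cs i) = f i := by
  have h1 := congrArg (cs.lift ⟨f, hf⟩) (Tits.Exchange.simple_op cs i)
  rw [map_mul, map_mul, cs.lift_apply_simple hf, cs.lift_apply_simple hf] at h1
  rw [h1, mul_comm, ← mul_assoc, ← map_mul, Tits.Exchange.w0_mul_self, map_one, one_mul]

theorem op_label [Finite I] (i j : I) : M (op cs i) (op cs j) = M i j := by
  classical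
  have := Fintype.ofFinite I
  rw [← Cfsg.Agent.LieRecognition.CoxForm.orderOf_eq cs, ← Cfsg.Agent.LieRecognition.CoxForm.orderOf_eq cs]
  have h1 : cs.simple (op cs i) * cs.simple (op cs j) = w0 cs * (cs.simple i * cs.simple j) * (w0 cs)⁻¹ := by
    rw [Tits.Exchange.simple_op, Tits.Exchange.simple_op, Tits.Exchange.w0_inv]
    have h2 := Tits.Exchange.w0_mul_self cs
    calc w0 cs * cs.simple i * w0 cs * (w0 cs * cs.simple j * w0 cs)
        = w0 cs * cs.simple i * (w0 cs * w0 cs) * cs.simple j * w0 cs := by group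
      _ = w0 cs * (cs.simple i * cs.simple j) * w0 cs := by rw [h2]; group
  rw [h1]
  exact orderOf_injective (MulAut.conj (w0 cs)).toMonoidHom (MulAut.conj (w0 cs)).injective
    (cs.simple i * cs.simple j)

theorem op_inj (hinj : Function.Injective cs.simple) : Function.Injective (op cs) := by
  intro i j hij
  rw [← Tits.Exchange.op_op cs hinj i, ← Tits.Exchange.op_op cs hinj j, hij]

end Op

theorem op_two {M : CoxeterMatrix (Fin 2)} {W : Type*} [Group W] [Finite W] (cs : CoxeterSystem M W)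
    (hM : Even (M 0 1)) : ∀ i ∈ ({0} : Set (Fin 2)), op cs i ∈ ({0} : Set (Fin 2)) := by
  have hf : M.IsLiftable (![-1, 1] : Fin 2 → ℤˣ) := by
    have h10 : M 1 0 = M 0 1 := M.symmetric 1 0
    intro i j
    fin_cases i <;> fin_cases j
    · simp
    · show ((-1 : ℤˣ) * 1) ^ M 0 1 = 1
      rw [mul_one]
      exact hM.neg_one_pow
    · show ((1 : ℤˣ) * -1) ^ M 1 0 = 1
      rw [h10, one_mul]
      exact hM.neg_one_pow
    · simp
  rintro i rfl
  have h1 := op_of_sign cs hf 0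
  show op cs 0 = 0
  generalize op cs 0 = x at h1
  revert x
  decide

theorem op_F4 {W : Type*} [Group W] [Finite W] (cs : CoxeterSystem CoxeterMatrix.F₄ W)
    (hinj : Function.Injective cs.simple) : ∀ i ∈ {i : Fin 4 | i ≠ 0}, op cs i ∈ {i : Fin 4 | i ≠ 0} := by
  have hf : CoxeterMatrix.F₄.IsLiftable (![-1, -1, 1, 1] : Fin 4 → ℤˣ) := by
    have key : ∀ i j : Fin 4, ((![-1, -1, 1, 1] : Fin 4 → ℤˣ) i * (![-1, -1, 1, 1] : Fin 4 → ℤˣ) j) ^
        CoxeterMatrix.F₄ i j = 1 := by decide +kernel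
    exact key
  have h1 := op_of_sign cs hf 0
  rcases WExc.perm_F4 (Equiv.ofBijective _ (Finite.injective_iff_bijective.1 (op_inj cs hinj)))
    (fun i j => op_label cs i j) with h2 | h2
  · intro i hi
    have h3 : op cs i = i := h2 i
    rw [h3]
    exact hi
  · exfalso
    have h3 : op cs 0 = (0 : Fin 4).rev := h2 0
    rw [h3] at h1
    revert h1
    decide

end Cfsg.Agent.H685.R4.WA
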