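import Cfsg.Agent.H685.R4.WInv
import Cfsg.Agent.H612.ModB
import Cfsg.Agent.H612.ModD
import Cfsg.Agent.H612.ModTab

/-!
# Self-paired double cosets: types `B_n`, `D_n`, `E_7` (helper685, S4554)
-/

set_option autoImplicit false
set_option linter.unusedSectionVars false

namespace Cfsg.Agent.H685.R4.WInv

open CoxeterSystem Cfsg.Agent.ChevalleyStructure.CoxeterGeom Cfsg.Agent.Tits.Roots
  Cfsg.Agent.Tits.Core Cfsg.Agent.H905.DC Cfsg.Agent.H612.WModel Cfsg.Agent.H612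
open Cfsg.Agent.Nodes

theorem hR_B {n : ℕ} (hn : 1 < n) {W : Type*} [Group W] (cs : CoxeterSystem (CoxeterMatrix.B n) W) (w : W) :
    ∃ a ∈ WJ cs {i | (i : ℕ) ≠ 0}, ∃ b ∈ WJ cs {i | (i : ℕ) ≠ 0}, w⁻¹ = a * w * b := by
  have hJ : {i : Fin n | (i : ℕ) ≠ 0} = {i | ModB.l n (by omega) i = 0} := by
    ext i
    show (i : ℕ) ≠ 0 ↔ ModB.l n _ i = 0
    rw [ModB.l_apply hn]
    split_ifs <;> simp_all
  rw [hJ]
  refine ColK.hR1_words cs (TypeC.isCartan n) (C := ofCol (ModB.col hn)) ?_ (1 : Fin 3)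
    (fun k => if k = 2 then [⟨0, by omega⟩] else []) ?_ w
  · intro i
    rw [ModB.l_apply hn]
    split_ifs <;> norm_num
  · intro k hk
    have h1 : TypeC.sg (⟨0, by omega⟩ : Fin n) (⟨0, by omega⟩, true) = (⟨1, hn⟩, true) :=
      TypeC.sg_up (i := (⟨0, by omega⟩ : Fin n)) (by simpa using hn) true
    have h2 : k = 0 ∨ k = 2 := by
      fin_cases k
      · exact Or.inl rfl
      · exact absurd rfl hk
      · exact Or.inr rfl
    rcases h2 with rfl | rfl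
    · exact ⟨rfl, rfl⟩
    · have h3 : (ofCol (ModB.col hn)).c (walk (ModB.model (n := n) (by omega)) [⟨0, by omega⟩] (ModB.model (n := n) (by omega)).o) = 2 := by
        show (ModB.col hn).c (TypeC.sg (⟨0, by omega⟩ : Fin n) (⟨0, by omega⟩, true)) = 2
        rw [h1]
        rfl
      exact ⟨h3, h3⟩

theorem hR_D {n : ℕ} (hn : 1 ≤ n) {W : Type*} [Group W] (cs : CoxeterSystem (TypeD.M n) W) (w : W) :
    ∃ a ∈ WJ cs {i | (i : ℕ) ≠ 0}, ∃ b ∈ WJ cs {i | (i : ℕ) ≠ 0}, w⁻¹ = a * w * b := by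
  have hJ : {i : Fin (n + 2) | (i : ℕ) ≠ 0} = {i | ModD.l n i = 0} := by
    ext i
    show (i : ℕ) ≠ 0 ↔ ModD.l n i = 0
    rw [ModD.l_apply hn]
    split_ifs <;> simp_all
  rw [hJ]
  refine ColK.hR1_words cs (TypeD.isCartan n) (C := ofCol (ModD.col hn)) ?_ (1 : Fin 3)
    (fun k => if k = 2 then [⟨0, by omega⟩] else []) ?_ w
  · intro i
    rw [ModD.l_apply hn]
    split_ifs <;> norm_num
  · intro k hk
    have h1 : TypeD.sg (⟨0, by omega⟩ : Fin (n + 2)) (⟨0, by omega⟩, true) = (⟨1, by omega⟩, true) :=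
      ModD.sg_up (i := (⟨0, by omega⟩ : Fin (n + 2))) (by simp) true
    have h2 : k = 0 ∨ k = 2 := by
      fin_cases k
      · exact Or.inl rfl
      · exact absurd rfl hk
      · exact Or.inr rfl
    rcases h2 with rfl | rfl
    · exact ⟨rfl, rfl⟩
    · have h3 : (ofCol (ModD.col hn)).c (walk (ModD.model n) [⟨0, by omega⟩] (ModD.model n).o) = 2 := by
        show (ModD.col hn).c (TypeD.sg (⟨0, by omega⟩ : Fin (n + 2)) (⟨0, by omega⟩, true)) = 2
        rw [h1]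
        rfl
      exact ⟨h3, h3⟩

/-- the criterion for a table -/
theorem hR_dat {l : ℕ} {A : Fin l → Fin l → ℤ} {lam : Fin l → ℤ} {N r : ℕ} (D : ModFin.Dat A lam N r)
    {M : CoxeterMatrix (Fin l)} (h : IsCartan M A) (h0 : ∀ i, 0 ≤ lam i) (k0 : Fin r) (ws : Fin r → List (Fin l))
    (hws : ∀ k, k ≠ k0 → D.c ((ws k).foldl (fun y j => D.t j y) D.o) = k ∧
      D.c ((ws k).reverse.foldl (fun y j => D.t j y) D.o) = k)
    {J : Set (Fin l)} (hJ : J = {i | lam i = 0}) {W : Type*} [Group W] (cs : CoxeterSystem M W) (w : W) :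
    ∃ a ∈ WJ cs J, ∃ b ∈ WJ cs J, w⁻¹ = a * w * b := by
  subst hJ
  exact ColK.hR1_words cs h (C := ofCol (D.col h.diag)) h0 k0 ws hws w

end Cfsg.Agent.H685.R4.WInv
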