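import Cfsg.Agent.H685.R4.WTab
import Cfsg.Agent.H612.RowsTab

/-!
# Self-paired double cosets: exceptional types (helper685, S4554)
-/

set_option autoImplicit false
set_option linter.style.longLine false
set_option linter.unusedSectionVars false

namespace Cfsg.Agent.H685.R4.WExc

open Cfsg.Agent.H905.DC Cfsg.Agent.H612.ModFin Cfsg.Agent.H612.ModTab Cfsg.Agent.H612.WModel
open Cfsg.Agent.ChevalleyStructure.CoxeterGeom Cfsg.Agent.Tits.Roots Cfsg.Agent.Tits.Core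
open Cfsg.Agent.H685.R4.WInv Cfsg.Agent.H685.R4.WTab

theorem hR_D4 {W : Type*} [Group W] (cs : CoxeterSystem (Nodes.TypeD.M 2) W) (w : W) :
    ∃ a ∈ WJ cs {i | i ≠ 1}, ∃ b ∈ WJ cs {i | i ≠ 1}, w⁻¹ = a * w * b :=
  hR_dat datD4 isCartan_cD4 (by decide +kernel) 0
    (fun k => ([[], [1], [1, 0, 2, 1], [1, 0, 3, 1], [1, 2, 3, 1], [1, 0, 2, 3, 1], [1, 0, 2, 1, 3, 1, 2, 0, 1]] : List (List (Fin 4))).getD k [])
    (by decide +kernel) (by
      ext i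
      show i ≠ 1 ↔ lD4 i = 0
      revert i
      decide +kernel) cs w

theorem hR_E7 {W : Type*} [Group W] (cs : CoxeterSystem CoxeterMatrix.E₇ W) (w : W) :
    ∃ a ∈ WJ cs {i | i ≠ 0}, ∃ b ∈ WJ cs {i | i ≠ 0}, w⁻¹ = a * w * b :=
  hR_dat datE7 isCartan_cE7 (by decide +kernel) 0
    (fun k => ([[], [0], [0, 2, 3, 1, 4, 3, 2, 0], [0, 2, 3, 1, 4, 3, 2, 5, 4, 3, 1, 6, 5, 4, 3, 2, 0], [0, 2, 3, 1, 4, 3, 2, 0, 5, 4, 3, 1, 2, 3, 4, 5, 6, 5, 4, 3, 2, 1, 3, 4, 5, 0, 2, 3, 4, 1, 3, 2, 0]] : List (List (Fin 7))).getD k [])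
    (by decide +kernel) (by
      ext i
      show i ≠ 0 ↔ lE7 i = 0
      revert i
      decide +kernel) cs w

theorem hR_E6 {W : Type*} [Group W] (cs : CoxeterSystem CoxeterMatrix.E₆ W) (w : W) :
    ∃ a ∈ WJ cs {i | i ≠ 1}, ∃ b ∈ WJ cs {i | i ≠ 1}, w⁻¹ = a * w * b :=
  hR_dat datE6 isCartan_cE6 (by decide +kernel) 0
    (fun k => ([[], [1], [1, 3, 2, 4, 3, 1], [1, 3, 2, 0, 4, 3, 2, 5, 4, 3, 1], [1, 3, 2, 0, 4, 3, 1, 2, 3, 4, 5, 4, 3, 2, 1, 3, 4, 0, 2, 3, 1]] : List (List (Fin 6))).getD k [])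
    (by decide +kernel) (by
      ext i
      show i ≠ 1 ↔ lE6 i = 0
      revert i
      decide +kernel) cs w

theorem hR_E8 {W : Type*} [Group W] (cs : CoxeterSystem CoxeterMatrix.E₈ W) (w : W) :
    ∃ a ∈ WJ cs {i | i ≠ 7}, ∃ b ∈ WJ cs {i | i ≠ 7}, w⁻¹ = a * w * b :=
  hR_dat datE8 isCartan_cE8 (by decide +kernel) 0
    (fun k => ([[], [7], [7, 6, 5, 4, 3, 1, 2, 3, 4, 5, 6, 7], [7, 6, 5, 4, 3, 1, 2, 0, 3, 2, 4, 3, 1, 5, 4, 3, 2, 0, 6, 5, 4, 3, 1, 2, 3, 4, 5, 6, 7], [7, 6, 5, 4, 3, 1, 2, 0, 3, 2, 4, 3, 1, 5, 4, 3, 2, 0, 6, 5, 4, 3, 1, 2, 3, 4, 5, 6, 7, 6, 5, 4, 3, 2, 1, 3, 4, 5, 6, 0, 2, 3, 4, 5, 1, 3, 4, 2, 3, 0, 2, 1, 3, 4, 5, 6, 7]] : List (List (Fin 8))).getD k [])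
    (by decide +kernel) (by
      ext i
      show i ≠ 7 ↔ lE8 i = 0
      revert i
      decide +kernel) cs w

theorem hR_F4 {W : Type*} [Group W] (cs : CoxeterSystem CoxeterMatrix.F₄ W) (w : W) :
    ∃ a ∈ WJ cs {i | i ≠ 0}, ∃ b ∈ WJ cs {i | i ≠ 0}, w⁻¹ = a * w * b :=
  hR_dat datF4 isCartan_cF4 (by decide +kernel) 0
    (fun k => ([[], [0], [0, 1, 2, 1, 0], [0, 1, 2, 1, 3, 2, 1, 0], [0, 1, 2, 1, 0, 3, 2, 1, 2, 3, 0, 1, 2, 1, 0]] : List (List (Fin 4))).getD k [])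
    (by decide +kernel) (by
      ext i
      show i ≠ 0 ↔ lF4 i = 0
      revert i
      decide +kernel) cs w

/-- the colouring for `W_J w W_K` in type `F_4` -/
def colF4 : ColK (datF4.model isCartan_cF4.diag) {i : Fin 4 | i ≠ 3} (Fin 3) where
  c k := ⟨dg 8 CF4' k, ltCF4' k⟩
  inv := by
    intro j hj k
    have key : ∀ j : Fin 4, j ≠ 3 → ∀ k : Fin 24,
        (⟨dg 8 CF4' (datF4.t j k), ltCF4' _⟩ : Fin 3) = ⟨dg 8 CF4' k, ltCF4' k⟩ := by decide +kernel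
    exact key j hj k
  b := ![0, 5, 17]
  conn := by
    have h1 : ∀ k : Fin 24, k = (![0, 5, 17] : Fin 3 → Fin 24) ⟨dg 8 CF4' k, ltCF4' k⟩ ∨
        ∃ j : Fin 4, j ≠ 3 ∧ datF4.t j k < k := by decide +kernel
    have h2 : ∀ j : Fin 4, j ≠ 3 → ∀ k : Fin 24,
        (⟨dg 8 CF4' (datF4.t j k), ltCF4' _⟩ : Fin 3) = ⟨dg 8 CF4' k, ltCF4' k⟩ := by decide +kernel
    have key : ∀ n : ℕ, ∀ k : Fin 24, (k : ℕ) = n →
        Relation.ReflTransGen (fun x y => ∃ j ∈ {i : Fin 4 | i ≠ 3}, y = datF4.t j x)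
          ((![0, 5, 17] : Fin 3 → Fin 24) ⟨dg 8 CF4' k, ltCF4' k⟩) k := by
      intro n
      induction n using Nat.strong_induction_on with
      | _ n ih =>
        intro k hk
        rcases h1 k with h | ⟨j, hj0, hj⟩
        · rw [← h]
        · have h3 := ih _ (hk ▸ hj) (datF4.t j k) rfl
          rw [h2 j hj0] at h3
          refine h3.tail ⟨j, hj0, ?_⟩
          rw [datF4.t_t isCartan_cF4.diag]
    exact fun k => key k k rfl

/-! ### Symmetries -/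

set_option backward.isDefEq.respectTransparency false in
theorem sym_E6 (σ : Equiv.Perm (Fin 6))
    (hσ : ∀ i j, CoxeterMatrix.E₆ (σ i) (σ j) = CoxeterMatrix.E₆ i j) :
    σ '' {i : Fin 6 | i ≠ 1} = {i : Fin 6 | i ≠ 1} := by
  have key : ∀ x3 x2 x1 x4 : Fin 6, CoxeterMatrix.E₆ x3 x2 = 3 → CoxeterMatrix.E₆ x3 x1 = 3 →
      CoxeterMatrix.E₆ x3 x4 = 3 → x1 ≠ x4 → x2 ≠ x1 → x2 ≠ x4 →
      (∀ y, CoxeterMatrix.E₆ x1 y = 3 → y = x3) → x1 = 1 := by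
    decide +kernel
  have h1 : σ 1 = 1 := by
    refine key (σ 3) (σ 2) (σ 1) (σ 4) ?_ ?_ ?_ (σ.injective.ne (by decide))
      (σ.injective.ne (by decide)) (σ.injective.ne (by decide)) ?_
    · rw [hσ]; decide +kernel
    · rw [hσ]; decide +kernel
    · rw [hσ]; decide +kernel
    · intro y hy
      obtain ⟨k, rfl⟩ := σ.surjective y
      rw [hσ] at hy
      have h2 : ∀ k : Fin 6, CoxeterMatrix.E₆ 1 k = 3 → k = 3 := by decide +kernel
      rw [h2 k hy]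
  apply H612.Sym.image_eq
  intro i hi h2
  apply hi
  exact σ.injective (h2.trans h1.symm)

set_option backward.isDefEq.respectTransparency false in
theorem sym_E8 (σ : Equiv.Perm (Fin 8))
    (hσ : ∀ i j, CoxeterMatrix.E₈ (σ i) (σ j) = CoxeterMatrix.E₈ i j) :
    σ '' {i : Fin 8 | i ≠ 7} = {i : Fin 8 | i ≠ 7} := by
  have hb : ∀ x y z t : Fin 8, CoxeterMatrix.E₈ x y = 3 → CoxeterMatrix.E₈ x z = 3 →
      CoxeterMatrix.E₈ x t = 3 → y ≠ z → y ≠ t → z ≠ t → x = 3 := by decide +kernel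
  have h3 : σ 3 = 3 := by
    refine hb (σ 3) (σ 1) (σ 2) (σ 4) ?_ ?_ ?_ (σ.injective.ne (by decide))
      (σ.injective.ne (by decide)) (σ.injective.ne (by decide))
    · rw [hσ]; decide +kernel
    · rw [hσ]; decide +kernel
    · rw [hσ]; decide +kernel
  -- the path of length four from the branch node
  have k1 : ∀ x4 x5 : Fin 8, CoxeterMatrix.E₈ 3 x4 = 3 → CoxeterMatrix.E₈ x4 x5 = 3 → x5 ≠ 3 →
      (x4 = 2 ∧ x5 = 0) ∨ (x4 = 4 ∧ x5 = 5) := by decide +kernel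
  have k2 : ∀ x6 : Fin 8, CoxeterMatrix.E₈ 0 x6 = 3 → x6 = 2 := by decide +kernel
  have k3 : ∀ x6 : Fin 8, CoxeterMatrix.E₈ 5 x6 = 3 → x6 ≠ 4 → x6 = 6 := by decide +kernel
  have k4 : ∀ x7 : Fin 8, CoxeterMatrix.E₈ 6 x7 = 3 → x7 ≠ 5 → x7 = 7 := by decide +kernel
  have e34 : CoxeterMatrix.E₈ 3 (σ 4) = 3 := by
    conv_lhs => rw [← h3]
    rw [hσ]
    decide +kernel
  have e45 : CoxeterMatrix.E₈ (σ 4) (σ 5) = 3 := by rw [hσ]; decide +kernel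
  have e56 : CoxeterMatrix.E₈ (σ 5) (σ 6) = 3 := by rw [hσ]; decide +kernel
  have e67 : CoxeterMatrix.E₈ (σ 6) (σ 7) = 3 := by rw [hσ]; decide +kernel
  have n53 : σ 5 ≠ 3 := fun h => absurd (σ.injective (h.trans h3.symm)) (by decide)
  have n64 : σ 6 ≠ σ 4 := σ.injective.ne (by decide)
  have n75 : σ 7 ≠ σ 5 := σ.injective.ne (by decide)
  have h7 : σ 7 = 7 := by
    rcases k1 _ _ e34 e45 n53 with ⟨h4, h5⟩ | ⟨h4, h5⟩
    · rw [h5] at e56
      exact absurd (k2 _ e56) (by rw [← h4]; exact n64)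
    · rw [h5] at e56 n75
      rw [h4] at n64
      rw [k3 _ e56 n64] at e67
      exact k4 _ e67 n75
  apply H612.Sym.image_eq
  intro i hi h2
  apply hi
  exact σ.injective (h2.trans h7.symm)

set_option backward.isDefEq.respectTransparency false in
theorem perm_F4 (σ : Equiv.Perm (Fin 4)) (hσ : ∀ i j, CoxeterMatrix.F₄ (σ i) (σ j) = CoxeterMatrix.F₄ i j) :
    (∀ i, σ i = i) ∨ ∀ i, σ i = i.rev := by
  have key : ∀ x0 x1 x2 x3 : Fin 4, CoxeterMatrix.F₄ x0 x1 = 3 → CoxeterMatrix.F₄ x1 x2 = 4 →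
      CoxeterMatrix.F₄ x2 x3 = 3 →
      (x0 = 0 ∧ x1 = 1 ∧ x2 = 2 ∧ x3 = 3) ∨ (x0 = 3 ∧ x1 = 2 ∧ x2 = 1 ∧ x3 = 0) := by decide +kernel
  have h1 := key (σ 0) (σ 1) (σ 2) (σ 3) (by rw [hσ]; decide +kernel) (by rw [hσ]; decide +kernel)
    (by rw [hσ]; decide +kernel)
  rcases h1 with ⟨a, b, c, d⟩ | ⟨a, b, c, d⟩
  · left
    intro i
    fin_cases i
    · exact a
    · exact b
    · exact c
    · exact d
  · right
    intro i
    fin_cases i
    · exact a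
    · exact b
    · exact c
    · exact d

theorem sym_F4 (σ : Equiv.Perm (Fin 4)) (hσ : ∀ i j, CoxeterMatrix.F₄ (σ i) (σ j) = CoxeterMatrix.F₄ i j) :
    σ '' {i : Fin 4 | i ≠ 0} = {i : Fin 4 | i ≠ 0} ∨
      σ '' {i : Fin 4 | i ≠ 0} = {i : Fin 4 | i ≠ 3} ∧ σ '' {i : Fin 4 | i ≠ 3} = {i : Fin 4 | i ≠ 0} := by
  rcases perm_F4 σ hσ with h | h
  · left
    have h1 : σ = 1 := Equiv.ext h
    rw [h1]
    simp
  · right
    have key : ∀ (a b : Fin 4), b = a.rev → σ '' {i : Fin 4 | i ≠ a} = {i : Fin 4 | i ≠ b} := by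
      intro a b hab
      ext i
      constructor
      · rintro ⟨j, hj, rfl⟩
        intro h2
        apply hj
        rw [h, hab] at h2
        exact Fin.rev_injective h2
      · intro hi
        refine ⟨i.rev, fun h2 => hi ?_, by rw [h, Fin.rev_rev]⟩
        rw [hab, ← h2, Fin.rev_rev]
    exact ⟨key 0 3 (by decide), key 3 0 (by decide)⟩

/-- **Type `F_4`, twisted.** -/
theorem hR2_F4 {W : Type*} [Group W] (cs : CoxeterSystem CoxeterMatrix.F₄ W) (σ : Equiv.Perm (Fin 4))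
    (hσ : ∀ i j, CoxeterMatrix.F₄ (σ i) (σ j) = CoxeterMatrix.F₄ i j)
    (h1 : σ '' {i : Fin 4 | i ≠ 0} = {i : Fin 4 | i ≠ 3}) (h2 : σ '' {i : Fin 4 | i ≠ 3} = {i : Fin 4 | i ≠ 0})
    (φ : W → W) (hφ : ∀ v w, φ (v * w) = φ v * φ w) (hφi : Function.Injective φ)
    (hφs : ∀ i, φ (cs.simple i) = cs.simple (σ i)) (w : W) :
    ∃ a ∈ WJ cs {i : Fin 4 | i ≠ 0}, ∃ b ∈ WJ cs {i : Fin 4 | i ≠ 3}, φ w⁻¹ = a * w * b := by
  have hrev : ∀ i, σ i = i.rev := by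
    rcases perm_F4 σ hσ with h | h
    · exfalso
      have h3 : (3 : Fin 4) ∈ {i : Fin 4 | i ≠ 3} := by
        rw [← h1]
        exact ⟨3, by decide, h 3⟩
      exact h3 rfl
    · exact h
  have hJ : {i : Fin 4 | i ≠ 0} = {i | lF4 i = 0} := by
    ext i
    show i ≠ 0 ↔ lF4 i = 0
    revert i
    decide +kernel
  rw [hJ] at h1 h2 ⊢
  refine ColK.hR2 cs isCartan_cF4 colF4 (by decide +kernel) h1 h2 hφ hφi hφs 2 (fun k hk => ?_) w
  have h3 : φ 1 = 1 := by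
    have := hφ 1 1
    rw [mul_one] at this
    exact mul_eq_left.1 this.symm
  have hk' : k = 0 ∨ k = 1 := by
    revert k
    decide
  rcases hk' with rfl | rfl
  · refine ⟨1, ?_, ?_⟩
    · rw [Model.pos_one]
      decide +kernel
    · rw [inv_one, h3, Model.pos_one]
      decide +kernel
  · have h4 : ∀ ω : List (Fin 4), φ (cs.wordProd ω) = cs.wordProd (ω.map σ) := by
      intro ω
      induction ω with
      | nil => rw [cs.wordProd_nil, List.map_nil, cs.wordProd_nil, h3]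
      | cons i ω ih => rw [cs.wordProd_cons, List.map_cons, cs.wordProd_cons, hφ, hφs, ih]
    refine ⟨cs.wordProd [0, 1, 2, 3], ?_, ?_⟩
    · rw [pos_word]
      decide +kernel
    · have h5 : ([0, 1, 2, 3] : List (Fin 4)).reverse.map σ = [0, 1, 2, 3] := by
        simp only [List.reverse_cons, List.reverse_nil, List.nil_append, List.cons_append, List.map_cons,
          List.map_nil, hrev]
        decide
      rw [← cs.wordProd_reverse, h4, h5, pos_word]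
      decide +kernel

end Cfsg.Agent.H685.R4.WExc
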