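import Cfsg.Agent.H612.WModel
import Cfsg.Agent.H612.ModFin

/-!
# Self-paired double cosets in Coxeter groups (helper685, S4554)

`ColK m K κ` : a colouring of a model of `W_J \ W` whose classes are the components under the moves of `K`.

* `ColK.iff` : the colour of `w` determines `W_J w W_K`;
* `ColK.last` : a map permuting the double cosets and fixing all but one of them fixes all;
* `ColK.hR1` : double cosets closed under inversion;
* `ColK.hR2` : the same twisted by an automorphism interchanging `J` and `K`.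
-/

set_option autoImplicit false
set_option linter.unusedSectionVars false

namespace Cfsg.Agent.H685.R4.WInv

open CoxeterSystem Cfsg.Agent.ChevalleyStructure.CoxeterGeom Cfsg.Agent.Tits.Roots
  Cfsg.Agent.Tits.Core Cfsg.Agent.H905.DC Cfsg.Agent.H612.WModel

variable {I W : Type*} [Fintype I] [DecidableEq I] [Group W] {M : CoxeterMatrix I}
  (cs : CoxeterSystem M W) {A : I → I → ℤ} (h : IsCartan M A) {Ω : Type*} {l : I → ℤ}

/-- a colouring whose classes are the components under the moves of `K` -/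
structure ColK (m : Model A l Ω) (K : Set I) (κ : Type*) where
  /-- the colour -/
  c : Ω → κ
  inv : ∀ j ∈ K, ∀ ω, c (m.a j ω) = c ω
  /-- base points -/
  b : κ → Ω
  conn : ∀ ω, Relation.ReflTransGen (fun x y => ∃ j ∈ K, y = m.a j x) (b (c ω)) ω

/-- the colouring of a `Col` -/
def ofCol {m : Model A l Ω} {κ : Type*} (C : m.Col κ) : ColK m {i | l i = 0} κ where
  c := C.c
  inv := fun j hj ω => C.inv j hj ω
  b := C.b
  conn := C.conn

variable {m : Model A l Ω} {K : Set I} {κ : Type*} (C : ColK m K κ)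

theorem ColK.inv_pos {w v : W} (hv : v ∈ WJ cs K) : C.c (m.pos cs h (w * v)) = C.c (m.pos cs h w) := by
  unfold WJ at hv
  induction hv using Subgroup.closure_induction generalizing w with
  | mem x hx =>
    obtain ⟨j, hj, rfl⟩ := hx
    rw [Model.pos_mul_simple]
    exact C.inv j hj _
  | one => rw [mul_one]
  | mul x y _ _ hx hy => rw [← mul_assoc, hy, hx]
  | inv x _ hx =>
    have := hx (w := w * x⁻¹)
    rw [inv_mul_cancel_right] at this
    exact this.symm

theorem ColK.iff (h0 : ∀ i, 0 ≤ l i) {w w' : W} : C.c (m.pos cs h w) = C.c (m.pos cs h w') ↔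
    ∃ a ∈ WJ cs {i | l i = 0}, ∃ b ∈ WJ cs K, w' = a * w * b := by
  constructor
  · intro hc
    have h1 := C.conn (m.pos cs h w)
    have h2 := C.conn (m.pos cs h w')
    rw [hc] at h1
    obtain ⟨v, hv, hv'⟩ := m.exists_of_reach cs h ((m.conn_symm h h1).trans h2)
    exact ⟨w' * (w * v)⁻¹, (m.pos_eq_iff cs h h0).1 hv', v, hv, by group⟩
  · rintro ⟨a, ha, b, hb, rfl⟩
    rw [C.inv_pos cs h hb]
    congr 1
    rw [m.pos_eq_iff cs h h0]
    have : w * (a * w)⁻¹ = a⁻¹ := by group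
    rw [this]
    exact inv_mem ha

/-- **A map permuting the double cosets and fixing all but one of them fixes all.** -/
theorem ColK.last (τ : W → W)
    (hτ : ∀ w w', C.c (m.pos cs h (τ w)) = C.c (m.pos cs h (τ w')) ↔ C.c (m.pos cs h w) = C.c (m.pos cs h w'))
    (k0 : κ) (hrep : ∀ k, k ≠ k0 → ∃ w, C.c (m.pos cs h w) = k ∧ C.c (m.pos cs h (τ w)) = k) (w : W) :
    C.c (m.pos cs h (τ w)) = C.c (m.pos cs h w) := by
  by_cases hw : C.c (m.pos cs h w) = k0
  · by_contra hne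
    obtain ⟨v, hv, hv'⟩ := hrep (C.c (m.pos cs h (τ w))) (by rw [← hw]; exact hne)
    have h1 := (hτ w v).1 hv'.symm
    rw [hv] at h1
    exact hne h1.symm
  · obtain ⟨v, hv, hv'⟩ := hrep _ hw
    rw [← hv', hτ]
    exact hv.symm

/-- **Double cosets closed under inversion.** -/
theorem ColK.hR1 {C : ColK m {i | l i = 0} κ} (h0 : ∀ i, 0 ≤ l i) (k0 : κ)
    (hrep : ∀ k, k ≠ k0 → ∃ w : W, C.c (m.pos cs h w) = k ∧ C.c (m.pos cs h w⁻¹) = k) (w : W) :
    ∃ a ∈ WJ cs {i | l i = 0}, ∃ b ∈ WJ cs {i | l i = 0}, w⁻¹ = a * w * b := by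
  refine (C.iff cs h h0).1 ((C.last cs h (fun w => w⁻¹) (fun v w => ?_) k0 hrep w).symm)
  rw [C.iff cs h h0, C.iff cs h h0]
  constructor
  · rintro ⟨a, ha, b, hb, hab⟩
    refine ⟨b⁻¹, inv_mem hb, a⁻¹, inv_mem ha, ?_⟩
    rw [← inv_inj, hab]
    group
  · rintro ⟨a, ha, b, hb, rfl⟩
    exact ⟨b⁻¹, inv_mem hb, a⁻¹, inv_mem ha, by group⟩

/-- the image of a parabolic subgroup -/
theorem map_mem {σ : I → I} {J K : Set I} (hJK : ∀ j ∈ J, σ j ∈ K) {φ : W → W}
    (hφ : ∀ v w, φ (v * w) = φ v * φ w) (hφs : ∀ i, φ (cs.simple i) = cs.simple (σ i)) {w : W} (hw : w ∈ WJ cs J) :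
    φ w ∈ WJ cs K := by
  have h1 : φ 1 = 1 := by
    have := hφ 1 1
    rw [mul_one] at this
    exact mul_eq_left.1 this.symm
  unfold WJ at hw
  induction hw using Subgroup.closure_induction with
  | mem x hx =>
    obtain ⟨j, hj, rfl⟩ := hx
    rw [hφs]
    exact Subgroup.subset_closure ⟨_, hJK j hj, rfl⟩
  | one => rw [h1]; exact one_mem _
  | mul x y _ _ hx hy => rw [hφ]; exact mul_mem hx hy
  | inv x _ hx =>
    have h2 := hφ x⁻¹ x
    rw [inv_mul_cancel, h1] at h2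
    rw [← inv_eq_of_mul_eq_one_left h2.symm]
    exact inv_mem hx

theorem exists_mem {σ : Equiv.Perm I} {J K : Set I} (hJK : σ '' J = K) {φ : W → W}
    (hφ : ∀ v w, φ (v * w) = φ v * φ w) (hφs : ∀ i, φ (cs.simple i) = cs.simple (σ i)) {w : W} (hw : w ∈ WJ cs K) :
    ∃ v ∈ WJ cs J, φ v = w := by
  have h1 : φ 1 = 1 := by
    have := hφ 1 1
    rw [mul_one] at this
    exact mul_eq_left.1 this.symm
  unfold WJ at hw
  induction hw using Subgroup.closure_induction with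
  | mem x hx =>
    obtain ⟨j, hj, rfl⟩ := hx
    rw [← hJK] at hj
    obtain ⟨i, hi, rfl⟩ := hj
    exact ⟨_, Subgroup.subset_closure ⟨i, hi, rfl⟩, hφs i⟩
  | one => exact ⟨1, one_mem _, h1⟩
  | mul x y _ _ hx hy =>
    obtain ⟨v, hv, rfl⟩ := hx
    obtain ⟨w, hw, rfl⟩ := hy
    exact ⟨v * w, mul_mem hv hw, hφ v w⟩
  | inv x _ hx =>
    obtain ⟨v, hv, rfl⟩ := hx
    refine ⟨v⁻¹, inv_mem hv, ?_⟩
    have h2 := hφ v⁻¹ v
    rw [inv_mul_cancel, h1] at h2
    exact (inv_eq_of_mul_eq_one_left h2.symm).symm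

/-- **Double cosets `W_J w W_K` closed under `w ↦ φ(w⁻¹)`.** -/
theorem ColK.hR2 (h0 : ∀ i, 0 ≤ l i) {σ : Equiv.Perm I} (hJK : σ '' {i | l i = 0} = K)
    (hKJ : σ '' K = {i | l i = 0}) {φ : W → W} (hφ : ∀ v w, φ (v * w) = φ v * φ w) (hφi : Function.Injective φ)
    (hφs : ∀ i, φ (cs.simple i) = cs.simple (σ i)) (k0 : κ)
    (hrep : ∀ k, k ≠ k0 → ∃ w : W, C.c (m.pos cs h w) = k ∧ C.c (m.pos cs h (φ w⁻¹)) = k) (w : W) :
    ∃ a ∈ WJ cs {i | l i = 0}, ∃ b ∈ WJ cs K, φ w⁻¹ = a * w * b := by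
  refine (C.iff cs h h0).1 ((C.last cs h (fun w => φ w⁻¹) (fun v w => ?_) k0 hrep w).symm)
  rw [C.iff cs h h0, C.iff cs h h0]
  constructor
  · rintro ⟨a, ha, b, hb, hab⟩
    obtain ⟨a', ha', rfl⟩ := exists_mem cs hKJ hφ hφs ha
    obtain ⟨b', hb', rfl⟩ := exists_mem cs hJK hφ hφs hb
    rw [← hφ, ← hφ] at hab
    refine ⟨b'⁻¹, inv_mem hb', a'⁻¹, inv_mem ha', ?_⟩
    rw [← inv_inj, hφi hab]
    group
  · rintro ⟨a, ha, b, hb, rfl⟩
    refine ⟨φ b⁻¹, map_mem cs (fun k hk => ?_) hφ hφs (inv_mem hb), φ a⁻¹, map_mem cs (fun j hj => ?_) hφ hφs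
      (inv_mem ha), ?_⟩
    · rw [← hKJ]; exact ⟨k, hk, rfl⟩
    · rw [← hJK]; exact ⟨j, hj, rfl⟩
    · rw [← hφ, ← hφ]
      congr 1
      group

/-! ### Words -/

/-- the walk of a word -/
def walk (m : Model A l Ω) (ω : List I) (x : Ω) : Ω := ω.foldl (fun y j => m.a j y) x

theorem pos_wordProd (ω : List I) : ∀ w : W, m.pos cs h (w * cs.wordProd ω) = walk m ω (m.pos cs h w) := by
  induction ω with
  | nil =>
    intro w
    rw [cs.wordProd_nil, mul_one]
    rfl
  | cons i ω ih =>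
    intro w
    rw [cs.wordProd_cons, ← mul_assoc, ih, Model.pos_mul_simple]
    rfl

include h in
theorem pos_word (ω : List I) : m.pos cs h (cs.wordProd ω) = walk m ω m.o := by
  have := pos_wordProd cs h (m := m) ω 1
  rwa [one_mul, Model.pos_one] at this

include h in
theorem pos_word_inv (ω : List I) : m.pos cs h (cs.wordProd ω)⁻¹ = walk m ω.reverse m.o := by
  rw [← cs.wordProd_reverse, pos_word]

include h in
/-- the criterion with words -/
theorem ColK.hR1_words {C : ColK m {i | l i = 0} κ} (h0 : ∀ i, 0 ≤ l i) (k0 : κ) (ws : κ → List I)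
    (hws : ∀ k, k ≠ k0 → C.c (walk m (ws k) m.o) = k ∧ C.c (walk m (ws k).reverse m.o) = k) (w : W) :
    ∃ a ∈ WJ cs {i | l i = 0}, ∃ b ∈ WJ cs {i | l i = 0}, w⁻¹ = a * w * b := by
  refine ColK.hR1 cs h (C := C) h0 k0 (fun k hk => ⟨cs.wordProd (ws k), ?_, ?_⟩) w
  · rw [pos_word]
    exact (hws k hk).1
  · rw [pos_word_inv]
    exact (hws k hk).2

end Cfsg.Agent.H685.R4.WInv
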